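import Cfsg.Agent.R2.T1.T1x.Cert
import Cfsg.Agent.H952.F4.Gen
import Cfsg.Agent.H952.F4.Scott

/-!
# T1 (S5771, p = 2, n = 8): the ghost pattern `(32, 20, 16, 2, 8)` is impossible (helper24)
-/

set_option autoImplicit false
set_option maxRecDepth 100000

namespace Cfsg.Agent.R2.T1.T1x

open Cfsg Cfsg.Lie Module Equiv Equiv.Perm
open Cfsg.Agent.H943.E7V.Block (D1 rho)
open Cfsg.Agent.H952.F4 (ev es MaxAlt)
open Cfsg.Agent.H251.E6 (type_up up_last upP_apply coe_up)

local notation "uu" => Cfsg.Agent.H251.E6.up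
open Cfsg.Agent.R2.T1 Cfsg.Agent.R2.T1.T1p Cfsg.Agent.R2.T1.Odd Cfsg.Agent.R2.T1.Art

universe u

variable {F : Type u} [Field F]

/-! ### the group `3²` -/

def gE : List (List (ℕ × ℕ)) := [[(0, 1), (1, 2)], [(5, 6), (6, 7)]]

def eE : List (List ℕ) := [[], [0], [0, 0], [1], [1, 1], [0, 1], [0, 0, 1], [0, 1, 1], [0, 0, 1, 1]]

def rE : List (List (ℕ × ℕ)) := [[], l3, l33]

def dE : List (ℕ × List (ℕ × ℕ)) :=
  [(0, []), (1, []), (1, [(1, 2), (6, 7)]), (1, [(0, 5), (5, 3), (1, 6), (2, 7)]), (1, [(0, 5), (5, 3), (1, 7), (2, 6)]),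
   (2, [(3, 4), (4, 7)]), (2, [(1, 2), (4, 7)]), (2, [(4, 5), (5, 7)]), (2, [(1, 2), (3, 4), (4, 5), (5, 7)])]

theorem chkG_E : chkG 8 gE eE = true := by decide +kernel
theorem chkC_E : chkC 8 gE eE [] rE dE = true := by decide +kernel
theorem len_E : eE.length = 9 := by decide +kernel
theorem cnt_E : (List.range 3).map (fun k => (dE.map Prod.fst).count k) = [1, 4, 4] := by decide +kernel

/-- the standard 3-cycle -/
def x3 : A8 := ⟨c[0, 1, 2], by rw [mem_alternatingGroup]; decide +kernel⟩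

theorem P_g0 : P 8 [(0, 1), (1, 2)] = x3 := by
  apply Subtype.ext
  rw [coe_P (m := 8) le_rfl (by decide)]
  decide +kernel

theorem P_g1 : P 8 [(5, 6), (6, 7)] = c3 := by
  apply Subtype.ext
  rw [coe_P (m := 8) le_rfl (by decide)]
  decide +kernel

theorem finrank_E [Finite F] (h2 : (2 : F) = 0) {ψ : A8 →* Gh F}
    (h3 : ∀ a : A8, (a : Perm (Fin 8)).cycleType = {3} → ev (V F (ψ a)) 1 = 32)
    (h33 : ∀ a : A8, (a : Perm (Fin 8)).cycleType = {3, 3} → ev (V F (ψ a)) 1 = 20) :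
    finrank F ↥(inv ((V F).comp ψ : Representation F A8 (D1 → F)) (Tg 8 gE)) = 16 := by
  have h3F : (3 : F) ≠ 0 := by
    intro h
    have : (1 : F) = 0 := by linear_combination h - h2
    exact one_ne_zero this
  have hN : ((9 : ℕ) : F) ≠ 0 := by
    have : ((9 : ℕ) : F) = 3 * 3 := by norm_num
    rw [this]
    exact mul_ne_zero h3F h3F
  have h := dimC (n := 8) (m := 8) le_rfl chkG_E chkC_E len_E (by rfl : rE.length = 3) hN cnt_E
    ((V F).comp ψ : Representation F A8 (D1 → F))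
  simp only [Finset.sum_range_succ, Finset.sum_range_zero, zero_add, rE, List.getD_cons_zero, List.getD_cons_succ, P_nil] at h
  have o3 : orderOf (P 8 l3) = 3 := orderOf_P (m := 8) le_rfl (by decide +kernel)
  have o33 : orderOf (P 8 l33) = 3 := orderOf_P (m := 8) le_rfl (by decide +kernel)
  have t3 : ((P 8 l3 : A8) : Perm (Fin 8)).cycleType = {3} := by
    rw [coe_P (m := 8) le_rfl (by decide)]
    decide +kernel
  have t33 : ((P 8 l33 : A8) : Perm (Fin 8)).cycleType = {3, 3} := by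
    rw [coe_P (m := 8) le_rfl (by decide)]
    decide +kernel
  have e3 : ev (((V F).comp ψ : Representation F A8 (D1 → F)) (P 8 l3)) 1 = 32 := h3 _ t3
  have e33 : ev (((V F).comp ψ : Representation F A8 (D1 → F)) (P 8 l33)) 1 = 20 := h33 _ t33
  rw [om_one, om_prime _ Nat.prime_three o3, om_prime _ Nat.prime_three o33, e3, e33, finrank_V] at h
  norm_num at h
  have h5 : (finrank F ↥(inv ((V F).comp ψ : Representation F A8 (D1 → F)) (Tg 8 gE)) : ℚ) = 16 := by linarith
  exact_mod_cast h5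

/-! ### the action of `A_5` on the fixed space of the 3-cycle -/

/-- the embedding of `A_5` -/
def e5 : ↥(alternatingGroup (Fin 5)) →* A8 := Cfsg.Agent.H251.E6.up.comp (Cfsg.Agent.H251.E6.up.comp Cfsg.Agent.H251.E6.up)

theorem e5_fix (a : ↥(alternatingGroup (Fin 5))) : (e5 a : Perm (Fin 8)) 5 = 5 ∧ (e5 a : Perm (Fin 8)) 6 = 6 ∧
    (e5 a : Perm (Fin 8)) 7 = 7 := by
  have h7 : (e5 a : Perm (Fin 8)) (Fin.last 7) = Fin.last 7 := up_last _
  have h6 : (e5 a : Perm (Fin 8)) (Fin.last 6).castSucc = (Fin.last 6).castSucc := by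
    show ((uu (uu (uu a)) : ↥(alternatingGroup (Fin 8))) : Perm (Fin 8)) _ = _
    rw [coe_up, upP_apply, up_last]
  have h5 : (e5 a : Perm (Fin 8)) (Fin.last 5).castSucc.castSucc = (Fin.last 5).castSucc.castSucc := by
    show ((uu (uu (uu a)) : ↥(alternatingGroup (Fin 8))) : Perm (Fin 8)) _ = _
    rw [coe_up, upP_apply, coe_up, upP_apply, up_last]
  exact ⟨h5, h6, h7⟩

theorem e5_surj {a : A8} (h5 : (a : Perm (Fin 8)) 5 = 5) (h6 : (a : Perm (Fin 8)) 6 = 6) (h7 : (a : Perm (Fin 8)) 7 = 7) :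
    ∃ b, e5 b = a := by
  obtain ⟨b, rfl⟩ := exists_up (a := a) h7
  have hb : (b : Perm (Fin 7)) (Fin.last 6) = Fin.last 6 := by
    have h8 : ((uu b : ↥(alternatingGroup (Fin 8))) : Perm (Fin 8)) (Fin.last 6).castSucc = (Fin.last 6).castSucc := h6
    rw [coe_up, upP_apply] at h8
    exact Fin.castSucc_injective _ h8
  obtain ⟨c, rfl⟩ := exists_up (a := b) hb
  have hc : (c : Perm (Fin 6)) (Fin.last 5) = Fin.last 5 := by
    have h8 : ((uu (uu c) : ↥(alternatingGroup (Fin 8))) : Perm (Fin 8)) (Fin.last 5).castSucc.castSucc =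
      (Fin.last 5).castSucc.castSucc := h5
    rw [coe_up, upP_apply, coe_up, upP_apply] at h8
    exact Fin.castSucc_injective _ (Fin.castSucc_injective _ h8)
  obtain ⟨d, rfl⟩ := exists_up (a := c) hc
  exact ⟨d, rfl⟩

theorem disj (a : ↥(alternatingGroup (Fin 5))) : Disjoint (e5 a : Perm (Fin 8)) (c3 : Perm (Fin 8)) := by
  obtain ⟨h5, h6, h7⟩ := e5_fix a
  have hc : ∀ x : Fin 8, x ≠ 5 → x ≠ 6 → x ≠ 7 → (c3 : Perm (Fin 8)) x = x := by decide +kernel
  intro x
  by_cases h : x = 5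
  · exact Or.inl (by rw [h, h5])
  by_cases h' : x = 6
  · exact Or.inl (by rw [h', h6])
  by_cases h'' : x = 7
  · exact Or.inl (by rw [h'', h7])
  exact Or.inr (hc x h h' h'')

theorem comm5 (a : ↥(alternatingGroup (Fin 5))) : e5 a * c3 = c3 * e5 a := Subtype.ext (disj a).commute.eq

theorem type_e5 (a : ↥(alternatingGroup (Fin 5))) : (e5 a : Perm (Fin 8)).cycleType = (a : Perm (Fin 5)).cycleType := by
  show ((uu (uu (uu a)) : ↥(alternatingGroup (Fin 8))) : Perm (Fin 8)).cycleType = _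
  rw [type_up, type_up, type_up]

theorem type_c3 : (c3 : Perm (Fin 8)).cycleType = {3} := by decide +kernel

theorem type_c7 : (c7 : Perm (Fin 8)).cycleType = {7} := by decide +kernel

section N
variable (ψ : A8 →* Gh F)

/-- the fixed space of the 3-cycle -/
noncomputable abbrev N : Submodule F (D1 → F) := es (V F (ψ c3)) 1

variable {ψ}

theorem mem_es {g : A8} {v : D1 → F} : v ∈ es (V F (ψ g)) 1 ↔ V F (ψ g) v = v := by
  show v ∈ Module.End.eigenspace _ _ ↔ _
  rw [Module.End.mem_eigenspace_iff, one_smul]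

variable (ψ)

/-- the representation of `A_5` on `N` -/
noncomputable def rN : Representation F ↥(alternatingGroup (Fin 5)) ↥(N ψ) where
  toFun a := (V F (ψ (e5 a))).restrict (p := N ψ) (q := N ψ) fun v hv => by
    rw [mem_es] at hv ⊢
    rw [← V_mul, ← map_mul, ← comm5, map_mul, V_mul, hv]
  map_one' := by
    refine LinearMap.ext fun v => Subtype.ext ?_
    show V F (ψ (e5 1)) v = v
    rw [map_one, map_one, V_one]
  map_mul' a b := by
    refine LinearMap.ext fun v => Subtype.ext ?_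
    show V F (ψ (e5 (a * b))) v = V F (ψ (e5 a)) (V F (ψ (e5 b)) v)
    rw [map_mul, map_mul, V_mul]

variable {ψ}

theorem rN_apply (a : ↥(alternatingGroup (Fin 5))) (v : ↥(N ψ)) : ((rN ψ a v : ↥(N ψ)) : D1 → F) = V F (ψ (e5 a)) v := rfl

theorem ev_rN (a : ↥(alternatingGroup (Fin 5))) {W : Submodule F (D1 → F)}
    (hW : ∀ v, v ∈ W ↔ V F (ψ c3) v = v ∧ V F (ψ (e5 a)) v = v) : ev (rN ψ a) 1 = finrank F ↥W := by
  unfold ev
  have h : W = (Module.End.eigenspace (rN ψ a) 1).map (N ψ).subtype := by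
    ext v
    rw [hW, Submodule.mem_map]
    constructor
    · rintro ⟨h1, h2⟩
      refine ⟨⟨v, mem_es.2 h1⟩, ?_, rfl⟩
      rw [Module.End.mem_eigenspace_iff, one_smul]
      exact Subtype.ext h2
    · rintro ⟨w, hw, rfl⟩
      rw [Module.End.mem_eigenspace_iff, one_smul] at hw
      exact ⟨mem_es.1 w.2, congrArg Subtype.val hw⟩
  rw [h, Submodule.finrank_map_subtype_eq]

theorem sf_nd (h2 : (2 : F) = 0) : ∀ v : ↥(N ψ), (∀ w : ↥(N ψ), sf F v w = 0) → v = 0 := by
  intro v hv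
  apply Subtype.ext
  apply sf_nondeg'
  intro w
  have hc : V F (ψ c3) v = v := mem_es.1 v.2
  have h3 : c3 ^ 3 = 1 := by decide +kernel
  have hc3 : V F (ψ c3) (V F (ψ c3) (V F (ψ c3) w)) = w := by
    rw [← V_mul, ← V_mul, ← map_mul, ← map_mul]
    have : c3 * c3 * c3 = 1 := by rw [← h3]; rfl
    rw [this, map_one, V_one]
  have e1 : sf F (v : D1 → F) (V F (ψ c3) w) = sf F v w := by
    conv_lhs => rw [← hc]
    exact sf_V _ _ _
  have e2 : sf F (v : D1 → F) (V F (ψ c3) (V F (ψ c3) w)) = sf F v w := by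
    conv_lhs => rw [← hc]
    rw [sf_V, e1]
  have hm : w + V F (ψ c3) w + V F (ψ c3) (V F (ψ c3) w) ∈ N ψ := by
    rw [mem_es, map_add, map_add, hc3]
    abel
  have h := hv ⟨_, hm⟩
  change sf F (v : D1 → F) (w + V F (ψ c3) w + V F (ψ c3) (V F (ψ c3) w)) = 0 at h
  rw [map_add, map_add, e1, e2] at h
  linear_combination h - (sf F (v : D1 → F) w) * h2

theorem ev_inv_ge {M : Type*} [AddCommGroup M] [Module F M] [FiniteDimensional F M] (h2 : (2 : F) = 0) (T : Module.End F M)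
    (hT : T * T = 1) : finrank F M ≤ 2 * ev T 1 := by
  have h := Cfsg.Agent.H952.F4.Scott.rank_add_ev T
  have hle : LinearMap.range (T - 1) ≤ Module.End.eigenspace T 1 := by
    rintro _ ⟨v, rfl⟩
    rw [Module.End.mem_eigenspace_iff, one_smul]
    have e : T * (T - 1) = T - 1 := by
      rw [mul_sub, hT, mul_one]
      have : (1 - T) - (T - 1) = 0 := by
        have e2 : (1 - T) - (T - 1) = (2 : F) • (1 - T) := by
          rw [two_smul]; abel
        rw [e2, h2, zero_smul]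
      exact sub_eq_zero.1 this
    calc T ((T - 1) v) = (T * (T - 1)) v := rfl
      _ = _ := by rw [e]
  have h1 := Submodule.finrank_mono hle
  have h3 : finrank F ↥(Module.End.eigenspace T 1) = ev T 1 := rfl
  omega

theorem dim_Y0 [Finite F] (h2 : (2 : F) = 0)
    (h3 : ∀ a : A8, (a : Perm (Fin 8)).cycleType = {3} → ev (V F (ψ a)) 1 = 32)
    (h33 : ∀ a : A8, (a : Perm (Fin 8)).cycleType = {3, 3} → ev (V F (ψ a)) 1 = 20)
    (h53 : ∀ a : A8, (a : Perm (Fin 8)).cycleType = {5, 3} → ev (V F (ψ a)) 1 = 8) : 4 ≤ finrank F (Y0 ψ) := by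
  obtain ⟨x, y, hgen, hx, hy, hxy⟩ := Cfsg.Agent.H952.F4.Gen.gen5
  let B : ↥(N ψ) →ₗ[F] ↥(N ψ) →ₗ[F] F := (sf F).domRestrict₁₂ (N ψ) (N ψ)
  have h := Cfsg.Agent.H952.F4.Scott.scott_form (rN ψ) hgen B (fun v hv => sf_nd h2 v fun w => hv w)
    (fun g v w => sf_V (ψ (e5 g)) (v : D1 → F) w)
  have hN : finrank F ↥(N ψ) = 32 := h3 c3 type_c3
  -- the involution
  have h1 : 32 ≤ 2 * ev (rN ψ x) 1 := by
    rw [← hN]
    apply ev_inv_ge h2
    rw [← map_mul]
    have : x * x = 1 := by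
      have h6 : orderOf (x : Perm (Fin 5)) = 2 := by
        rw [← Perm.lcm_cycleType, hx]; decide
      apply Subtype.ext
      have h7 := pow_orderOf_eq_one (x : Perm (Fin 5))
      rw [h6, pow_two] at h7
      exact h7
    rw [this, map_one]
  -- the 3-cycle
  have h4 : ev (rN ψ y) 1 = 16 := by
    let y0 : ↥(alternatingGroup (Fin 5)) := ⟨c[0, 1, 2], by rw [mem_alternatingGroup]; decide +kernel⟩
    have hc : IsConj y0 y := by
      apply alternatingGroup.isConj_of
      · rw [Perm.isConj_iff_cycleType_eq, hy]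
        show (c[0, 1, 2] : Perm (Fin 5)).cycleType = _
        decide +kernel
      · show (c[0, 1, 2] : Perm (Fin 5)).support.card + 2 ≤ _
        decide +kernel
    obtain ⟨c, rfl⟩ := isConj_iff.1 hc
    rw [Cfsg.Agent.H944.E6T.ev_conj, ← finrank_E h2 h3 h33]
    apply ev_rN
    intro v
    have hx3 : e5 y0 = x3 := by decide +kernel
    rw [hx3, Tg, mem_inv_closure]
    constructor
    · intro hv
      refine ⟨?_, ?_⟩
      · rw [← P_g1]
        exact hv _ ⟨_, by simp [gE], rfl⟩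
      · rw [← P_g0]
        exact hv _ ⟨_, by simp [gE], rfl⟩
    · rintro ⟨hv1, hv2⟩ g ⟨l, hl, rfl⟩
      simp only [gE, List.mem_cons, List.not_mem_nil, or_false] at hl
      rcases hl with rfl | rfl
      · rw [P_g0]; exact hv2
      · rw [P_g1]; exact hv1
  -- the 5-cycle
  have h5 : ev (rN ψ (x * y)) 1 = 8 := by
    set z := x * y with hz
    have hz5 : e5 z ^ 5 = 1 := by
      have h6 : orderOf (z : Perm (Fin 5)) = 5 := by
        rw [← Perm.lcm_cycleType, hxy]; decide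
      have h8 := pow_orderOf_eq_one (z : Perm (Fin 5))
      rw [h6] at h8
      have h7 : z ^ 5 = 1 := Subtype.ext h8
      rw [← map_pow, h7, map_one]
    have hc3 : c3 ^ 3 = 1 := by decide +kernel
    have hcomm : Commute (e5 z) c3 := comm5 z
    have ht : ((e5 z * c3 : A8) : Perm (Fin 8)).cycleType = {5, 3} := by
      show ((e5 z : Perm (Fin 8)) * (c3 : Perm (Fin 8))).cycleType = _
      rw [(disj z).cycleType_mul, type_e5, hxy, type_c3]
      rfl
    rw [← h53 _ ht]
    apply ev_rN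
    intro v
    rw [show (v ∈ Module.End.eigenspace (V F (ψ (e5 z * c3))) 1 ↔ V F (ψ (e5 z * c3)) v = v) from mem_es]
    constructor
    · intro hv
      have hpow : ∀ n : ℕ, V F (ψ ((e5 z * c3) ^ n)) v = v := by
        intro n
        induction n with
        | zero => rw [pow_zero, map_one, V_one]
        | succ n ih => rw [pow_succ, map_mul, V_mul, hv, ih]
      have h10 := hpow 10
      have h6 := hpow 6
      rw [hcomm.mul_pow] at h10 h6
      have e1 : e5 z ^ 10 = 1 := by rw [show (10 : ℕ) = 5 * 2 by norm_num, pow_mul, hz5, one_pow]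
      have e2 : c3 ^ 10 = c3 := by decide +kernel
      have e3 : e5 z ^ 6 = e5 z := by rw [show (6 : ℕ) = 5 + 1 by norm_num, pow_succ, hz5, one_mul]
      have e4 : c3 ^ 6 = 1 := by decide +kernel
      rw [e1, e2, one_mul] at h10
      rw [e3, e4, mul_one] at h6
      exact ⟨h10, h6⟩
    · rintro ⟨hv1, hv2⟩
      rw [map_mul, V_mul, hv1, hv2]
  rw [h4, h5, hN] at h
  have hle : (rN ψ).invariants.map (N ψ).subtype ≤ Y0 ψ := by
    rintro _ ⟨v, hv, rfl⟩
    refine ⟨mem_es.1 v.2, fun a a5 a6 a7 => ?_⟩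
    obtain ⟨b, rfl⟩ := e5_surj a5 a6 a7
    exact congrArg Subtype.val ((Representation.mem_invariants (ρ := rN ψ) v).1 hv b)
  have h6 := Submodule.finrank_mono hle
  rw [Submodule.finrank_map_subtype_eq] at h6
  omega

/-- **the ghost pattern is impossible** -/
theorem false_of [Finite F] (h2 : (2 : F) = 0) (ψ : A8 →* Gh F)
    (h3 : ∀ a : A8, (a : Perm (Fin 8)).cycleType = {3} → ev (V F (ψ a)) 1 = 32)
    (h33 : ∀ a : A8, (a : Perm (Fin 8)).cycleType = {3, 3} → ev (V F (ψ a)) 1 = 20)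
    (h7 : ∀ a : A8, (a : Perm (Fin 8)).cycleType = {7} → ev (V F (ψ a)) 1 = 2)
    (h53 : ∀ a : A8, (a : Perm (Fin 8)).cycleType = {5, 3} → ev (V F (ψ a)) 1 = 8) : False := by
  have h1 := dim_Y0 (ψ := ψ) h2 h3 h33 h53
  have h4 := dim_Y0_le (ψ := ψ) h2
  rw [h7 c7 type_c7] at h4
  omega

end N

end Cfsg.Agent.R2.T1.T1x
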